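import Cfsg.Agent.H36.HT.VacOmB
import Cfsg.Agent.H720.HT.Bridge
import Cfsg.Agent.H892.HT.Disp

/-!
# S4933, the fields `oodd`, `oplus`, `ominus` of `TwoRows` (box 2.om) and `VOne`, `row_of_vac'` (helper36)
-/

set_option autoImplicit false

open Subgroup

namespace Cfsg.Agent.H36.HT

open Cfsg Cfsg.Agent.H316.HT Cfsg.Agent.H720.HT

theorem Vac.dd {p : ℕ} {S : Type*} [Group S] (h : Vac p S) : DD p S := by
  obtain ⟨R, hR, c, hc, h1⟩ := h
  refine ⟨R, hR, fun h => h1 ?_⟩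
  rw [h] at hc
  exact mem_bot.1 hc

/-- the vacuous row, no hypothesis -/
theorem row_of_vac' {p : ℕ} (hp : p.Prime) {S : Type*} [Group S] (h : Vac p S) : Row p S := row_of_dd hp h.dd

/-- field `oodd` of `TwoRows` -/
theorem oodd (F : Type) [Field F] [Fintype F] (m : ℕ) [IsSimpleGroup (POmega F (quadFormOdd m F))] (hm : 3 ≤ m)
    (hF : Odd (Fintype.card F)) : Row 2 (POmega F (quadFormOdd m F)) := row_of_vac' Nat.prime_two (vac_odd m hm hF)

/-- field `oplus` of `TwoRows` -/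
theorem oplus (F : Type) [Field F] [Fintype F] (m : ℕ) [IsSimpleGroup (POmega F (quadFormPlus m F))] (hm : 4 ≤ m)
    (hF : Odd (Fintype.card F)) : Row 2 (POmega F (quadFormPlus m F)) := row_of_vac' Nat.prime_two (vac_plus m hm hF)

/-- field `ominus` of `TwoRows` -/
theorem ominus (F : Type) [Field F] [Fintype F] (m : ℕ) (a b : F)
    [IsSimpleGroup (POmega F (quadFormMinus (m - 1) F a b))] (hm : 4 ≤ m)
    (hab : ∀ z₁ z₂ : F, z₁ ^ 2 + a * z₁ * z₂ + b * z₂ ^ 2 = 0 → z₁ = 0 ∧ z₂ = 0) (hF : Odd (Fintype.card F)) :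
    Row 2 (POmega F (quadFormMinus (m - 1) F a b)) := row_of_vac' Nat.prime_two (vac_minus m a b hm hab hF)

end Cfsg.Agent.H36.HT
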