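import Cfsg.Agent.H316.HT.Defs
import Mathlib.GroupTheory.Nilpotent
import Mathlib.GroupTheory.Commutator.Basic
import Mathlib.GroupTheory.Solvable

/-!
# S4933: the vacuous rows, frame (helper36)

* `Vac p S` : `S` has a `p`-subgroup `R` with `R'' ≠ 1`;
* `Vac.of_hom`, `Vac.of_comm`, `Vac.map`, `Vac.of_equiv`, `Vac.of_surj` : how to get it;
* `row_of_vac` : `Vac p S` gives the row of S4933 (given (V1): a `p`-group with the degrees `1, p ^ a` has `P'' = 1`).
-/

set_option autoImplicit false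

open Subgroup
open scoped commutatorElement

namespace Cfsg.Agent.H36.HT

open Cfsg Cfsg.Agent.H316.HT

universe u v w

/-- `S` has a `p`-subgroup `R` with `R'' ≠ 1` -/
def Vac (p : ℕ) (S : Type u) [Group S] : Prop :=
  ∃ R : Subgroup S, IsPGroup p R ∧ ∃ c ∈ ⁅⁅R, R⁆, ⁅R, R⁆⁆, c ≠ 1

/-- the case `p = 2` -/
abbrev Vac2 (S : Type u) [Group S] : Prop := Vac 2 S

/-- (V1): a `p`-group with the degrees `1, p ^ a` is metabelian -/
def VOne (p : ℕ) : Prop :=
  ∀ (P : Type) [Group P] [Finite P], IsPGroup p P → ∀ a : ℕ, 0 < a → CD p a P → derivedSeries P 2 = ⊥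

variable {p : ℕ} {S : Type u} [Group S] {E : Type v} [Group E] {K : Type w} [Group K]

theorem derived_two (G : Type u) [Group G] :
    derivedSeries G 2 = ⁅⁅(⊤ : Subgroup G), (⊤ : Subgroup G)⁆, ⁅(⊤ : Subgroup G), (⊤ : Subgroup G)⁆⁆ := by
  rw [show (2 : ℕ) = 1 + 1 from rfl, derivedSeries_succ, show (1 : ℕ) = 0 + 1 from rfl, derivedSeries_succ, derivedSeries_zero]

theorem map_range_comm (f : E →* S) : ⁅⁅f.range, f.range⁆, ⁅f.range, f.range⁆⁆ = (derivedSeries E 2).map f := by
  rw [derived_two, map_commutator, map_commutator, ← MonoidHom.range_eq_map]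

/-- a `p`-group `E → S`, an element of `E''` which survives -/
theorem Vac.of_hom (hE : IsPGroup p E) (f : E →* S) {c : E} (hc : c ∈ derivedSeries E 2) (h : f c ≠ 1) : Vac p S := by
  refine ⟨f.range, ?_, f c, ?_, h⟩
  · exact hE.of_surjective f.rangeRestrict f.rangeRestrict_surjective
  · rw [map_range_comm]
    exact mem_map_of_mem f hc

/-- elements `x, y, z, w` of a `p`-subgroup `R` with `⁅⁅x, y⁆, ⁅z, w⁆⁆ ≠ 1` -/
theorem Vac.of_comm {R : Subgroup S} (hR : IsPGroup p R) {x y z w : S} (hx : x ∈ R) (hy : y ∈ R) (hz : z ∈ R) (hw : w ∈ R)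
    (h : ⁅⁅x, y⁆, ⁅z, w⁆⁆ ≠ 1) : Vac p S :=
  ⟨R, hR, _, commutator_mem_commutator (commutator_mem_commutator hx hy) (commutator_mem_commutator hz hw), h⟩

/-- the same through a homomorphism which need not be injective -/
theorem Vac.of_comm_hom (f : K →* S) {R : Subgroup K} (hR : IsPGroup p R) {x y z w : K} (hx : x ∈ R) (hy : y ∈ R) (hz : z ∈ R)
    (hw : w ∈ R) (h : f ⁅⁅x, y⁆, ⁅z, w⁆⁆ ≠ 1) : Vac p S := by
  refine Vac.of_comm (hR.map f) (mem_map_of_mem f hx) (mem_map_of_mem f hy) (mem_map_of_mem f hz) (mem_map_of_mem f hw) ?_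
  rwa [← map_commutatorElement, ← map_commutatorElement, ← map_commutatorElement]

/-- overgroups -/
theorem Vac.map (f : K →* S) (hf : Function.Injective f) (h : Vac p K) : Vac p S := by
  obtain ⟨R, hR, c, hc, h1⟩ := h
  refine ⟨R.map f, hR.map f, f c, ?_, ?_⟩
  · rw [← map_commutator, ← map_commutator]
    exact mem_map_of_mem f hc
  · exact fun h => h1 (hf (h.trans f.map_one.symm))

theorem Vac.of_equiv (e : K ≃* S) (h : Vac p K) : Vac p S := h.map e.toMonoidHom e.injective

theorem Vac.of_subgroup {H : Subgroup S} (h : Vac p H) : Vac p S := h.map H.subtype H.subtype_injective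

/-- `Vac p S` says something about the Sylow `p`-subgroups of every overgroup -/
theorem Vac.sylow [Fact p.Prime] [Finite S] (h : Vac p S) (P : Sylow p S) :
    derivedSeries (P : Subgroup S) 2 ≠ ⊥ := by
  obtain ⟨R, hR, c, hc, h1⟩ := h
  obtain ⟨Q, hQ⟩ := hR.exists_le_sylow
  obtain ⟨g, hg⟩ := MulAction.exists_smul_eq S Q P
  intro hb
  have hP : ⁅⁅(P : Subgroup S), (P : Subgroup S)⁆, ⁅(P : Subgroup S), (P : Subgroup S)⁆⁆ = ⊥ := by
    have h2 := map_range_comm (P : Subgroup S).subtype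
    rw [hb, Subgroup.map_bot, Subgroup.range_subtype] at h2
    exact h2
  have hRP : R.map (MulAut.conj g).toMonoidHom ≤ (P : Subgroup S) := by
    rw [← hg]
    exact map_mono hQ
  have h3 : (MulAut.conj g) c ∈ ⁅⁅R, R⁆, ⁅R, R⁆⁆.map (MulAut.conj g).toMonoidHom := mem_map_of_mem _ hc
  rw [map_commutator, map_commutator] at h3
  have h4 := commutator_mono (commutator_mono hRP hRP) (commutator_mono hRP hRP) h3
  rw [hP, mem_bot] at h4
  exact h1 ((MulEquiv.map_eq_one_iff _).1 h4)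

/-- **the vacuous row** -/
theorem row_of_vac (hV : VOne p) [Fact p.Prime] (h : Vac p S) : Row p S := by
  intro A _ _ N _ hN _ M _ P a ha hcd
  obtain ⟨e⟩ := hN
  have hA : Vac p A := (h.map (N.subtype.comp e.symm.toMonoidHom)
    (N.subtype_injective.comp e.symm.injective))
  exact absurd (hV _ P.isPGroup' a ha hcd) (hA.sylow P)

end Cfsg.Agent.H36.HT
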