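import Cfsg.Agent.H36.HT.Vac
import Cfsg.Agent.LieClassical.OmegaCenter
import Cfsg.Agent.LieClassical.OrthFinite
import Cfsg.Agent.LieClassical.QuadForms
import Mathlib.GroupTheory.PGroup

/-!
# S4933, `p = 2`, orthogonal groups, odd characteristic: `P'' ≠ 1` (helper36)

`b 0, …, b 4` orthonormal, `w` of norm `2` orthogonal to them: the group generated by `r(b i) r(b 4)`, `r(b 0 - b 1) r(w)`,
`r(b 0 - b 2) r(b 1 - b 3)` is a `2`-group in `Ω`, its second derived subgroup contains `-1` on `⟨b 0, …, b 3⟩`.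
-/

set_option autoImplicit false

open Subgroup
open scoped commutatorElement

namespace Cfsg.Agent.H36.HT

open Cfsg QuadraticMap Cfsg.Agent.LieClassical.OrthCore

/-! ### Two general lemmas -/

section Gen

variable {G : Type*} [Group G]

theorem closure_inv_two {S : Set G} (hc : ∀ a ∈ S, ∀ b ∈ S, a * b = b * a) (hs : ∀ a ∈ S, a * a = 1) :
    IsPGroup 2 (closure S) := by
  have hcc : ∀ x ∈ closure S, ∀ y ∈ closure S, x * y = y * x := by
    have h1 : closure S ≤ centralizer S := by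
      rw [closure_le]
      intro a ha
      rw [SetLike.mem_coe, mem_centralizer_iff]
      exact fun b hb => hc b hb a ha
    have h2 : closure S ≤ centralizer (closure S : Set G) := by
      rw [closure_le]
      intro a ha
      rw [SetLike.mem_coe, mem_centralizer_iff]
      intro b hb
      exact (mem_centralizer_iff.1 (h1 hb) a ha).symm
    intro x hx y hy
    exact (mem_centralizer_iff.1 (h2 hx) y hy).symm
  have hss : ∀ x ∈ closure S, x * x = 1 := by
    intro x hx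
    induction hx using closure_induction with
    | mem a ha => exact hs a ha
    | one => exact one_mul 1
    | mul a b ha hb h1 h2 =>
      calc a * b * (a * b) = a * (b * a) * b := by group
        _ = a * (a * b) * b := by rw [hcc b hb a ha]
        _ = (a * a) * (b * b) := by group
        _ = 1 := by rw [h1, h2, one_mul]
    | inv a ha h1 =>
      rw [← mul_inv_rev, h1, inv_one]
  intro x
  refine ⟨1, ?_⟩
  apply Subtype.ext
  rw [pow_one, pow_two]
  exact hss x x.2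

theorem norm_of_inv {S : Set G} {g : G} (hg : g * g = 1) (h : ∀ a ∈ S, g * a * g⁻¹ ∈ closure S) :
    zpowers g ≤ normalizer (closure S : Set G) := by
  have h1 : ∀ x ∈ closure S, g * x * g⁻¹ ∈ closure S := by
    intro x hx
    have h2 : closure S ≤ (closure S).comap (MulAut.conj g).toMonoidHom := by
      rw [closure_le]
      exact h
    exact h2 hx
  rw [zpowers_le, mem_normalizer_iff]
  intro x
  constructor
  · exact h1 x
  · intro hx
    have h3 := h1 _ hx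
    have hi : g⁻¹ = g := inv_eq_of_mul_eq_one_left hg
    have h4 : g * (g * x * g⁻¹) * g⁻¹ = x := by
      calc g * (g * x * g⁻¹) * g⁻¹ = (g * g) * x * (g * g)⁻¹ := by group
        _ = x := by rw [hg, one_mul, inv_one, mul_one]
    rwa [h4] at h3

theorem zpowers_two {g : G} (hg : g * g = 1) : IsPGroup 2 (zpowers g) := by
  rw [zpowers_eq_closure]
  refine closure_inv_two ?_ ?_
  · rintro a rfl b rfl
    rfl
  · rintro a rfl
    exact hg

end Gen

/-! ### Reflections -/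

section Refl

variable {F V : Type*} [Field F] [AddCommGroup V] [Module F V] {Q : QuadraticForm F V}

open Classical in
/-- the reflection, `1` when the norm is `0` -/
noncomputable def rf (Q : QuadraticForm F V) (v : V) : V ≃ₗ[F] V := if h : Q v ≠ 0 then refl Q v h else 1

theorem rf_eq {v : V} (h : Q v ≠ 0) : rf Q v = refl Q v h := dif_pos h

theorem rf_apply {v : V} (h : Q v ≠ 0) (x : V) : rf Q v x = x - ((Q v)⁻¹ * polar Q v x) • v := by
  rw [rf_eq h, refl_apply]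

theorem rf_mem_O (v : V) : rf Q v ∈ O Q := by
  by_cases h : Q v ≠ 0
  · rw [rf_eq h]
    exact refl_mem_O h
  · rw [rf, dif_neg h]
    exact one_mem _

theorem rf_sq (v : V) : rf Q v * rf Q v = 1 := by
  by_cases h : Q v ≠ 0
  · rw [rf_eq h]
    exact refl_mul_self h
  · rw [rf, dif_neg h, one_mul]

theorem rf_inv (v : V) : (rf Q v)⁻¹ = rf Q v := inv_eq_of_mul_eq_one_left (rf_sq v)

theorem rf_conj {g : V ≃ₗ[F] V} (hg : g ∈ O Q) (v : V) : g * rf Q v * g⁻¹ = rf Q (g v) := by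
  have h1 : Q (g v) = Q v := hg v
  by_cases h : Q v ≠ 0
  · rw [rf_eq h, rf_eq (h1.trans_ne h)]
    exact refl_conj hg h _
  · rw [rf, dif_neg h, rf, dif_neg (fun h' => h (h1 ▸ h')), mul_one, mul_inv_cancel]

theorem rf_comm {v w : V} (h : polar Q v w = 0) : rf Q v * rf Q w = rf Q w * rf Q v := by
  by_cases hv : Q v ≠ 0
  · by_cases hw : Q w ≠ 0
    · rw [rf_eq hv, rf_eq hw]
      exact refl_comm hv hw h
    · rw [rf, rf, dif_neg hw, one_mul, mul_one]
  · rw [rf, dif_neg hv, one_mul, mul_one]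

/-- the product of the reflections in two orthogonal vectors of the same norm -/
theorem rf_two_mem (h2 : (2 : F) ≠ 0) {v w : V} (hv : Q v ≠ 0) (h : Q v = Q w) (ho : polar Q v w = 0) :
    rf Q v * rf Q w ∈ ⁅O Q, O Q⁆ := by
  have h3 : Q (w - v) ≠ 0 := by
    have e := QuadraticMap.map_add Q (w - v) v
    rw [sub_add_cancel, polar_sub_left, polar_self', polar_comm Q w v, ho, ← h] at e
    have e2 : Q (w - v) = 2 * Q v := by linear_combination -e
    rw [e2]
    exact mul_ne_zero h2 hv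
  have hs : rf Q (w - v) w = v := by
    rw [rf_eq h3]
    exact refl_sub_apply h h3
  have h4 : rf Q v = rf Q (w - v) * rf Q w * (rf Q (w - v))⁻¹ := by
    rw [rf_conj (rf_mem_O _), hs]
  have h5 : rf Q v * rf Q w = ⁅rf Q (w - v), rf Q w⁆ := by
    rw [commutatorElement_def, ← h4, rf_inv]
  rw [h5]
  exact commutator_mem_commutator (rf_mem_O _) (rf_mem_O _)

end Refl

/-! ### The frame -/

section Frame

variable {F V : Type*} [Field F] [AddCommGroup V] [Module F V]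

/-- five orthonormal vectors and an orthogonal vector of norm `2` -/
structure Fr (Q : QuadraticForm F V) (b : Fin 5 → V) (w : V) : Prop where
  two : (2 : F) ≠ 0
  nb : ∀ i, Q (b i) = 1
  nw : Q w = 2
  ob : ∀ i j, i ≠ j → polar Q (b i) (b j) = 0
  ow : ∀ i, polar Q (b i) w = 0

variable {Q : QuadraticForm F V} {b : Fin 5 → V} {w : V}

theorem Fr.nd (h : Fr Q b w) {i j : Fin 5} (hij : i ≠ j) : Q (b i - b j) = 2 := by
  have e := QuadraticMap.map_add Q (b i - b j) (b j)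
  rw [sub_add_cancel, polar_sub_left, polar_self', h.ob i j hij, h.nb, h.nb] at e
  linear_combination -e

theorem Fr.nd0 (h : Fr Q b w) {i j : Fin 5} (hij : i ≠ j) : Q (b i - b j) ≠ 0 := by
  rw [h.nd hij]
  exact h.two

theorem Fr.nw0 (h : Fr Q b w) : Q w ≠ 0 := by
  rw [h.nw]
  exact h.two

theorem Fr.nb0 (h : Fr Q b w) (i : Fin 5) : Q (b i) ≠ 0 := by
  rw [h.nb]
  exact one_ne_zero

/-- the reflection in `b i - b j` fixes the other vectors -/
theorem Fr.rf_fix (h : Fr Q b w) {i j k : Fin 5} (hij : i ≠ j) (hik : i ≠ k) (hjk : j ≠ k) : rf Q (b i - b j) (b k) = b k := by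
  rw [rf_apply (h.nd0 hij), polar_sub_left, h.ob i k hik, h.ob j k hjk]
  simp

theorem Fr.rf_left (h : Fr Q b w) {i j : Fin 5} (hij : i ≠ j) : rf Q (b i - b j) (b i) = b j := by
  rw [rf_apply (h.nd0 hij), polar_sub_left, polar_self', h.ob j i hij.symm, h.nd hij, h.nb, mul_one, sub_zero, inv_mul_cancel₀ h.two]
  simp

theorem Fr.rf_right (h : Fr Q b w) {i j : Fin 5} (hij : i ≠ j) : rf Q (b i - b j) (b j) = b i := by
  rw [rf_apply (h.nd0 hij), polar_sub_left, polar_self', h.ob i j hij, h.nd hij, h.nb, mul_one, zero_sub, mul_neg,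
    inv_mul_cancel₀ h.two]
  simp

theorem Fr.rf_w (h : Fr Q b w) {i j : Fin 5} (hij : i ≠ j) : rf Q (b i - b j) w = w := by
  rw [rf_apply (h.nd0 hij), polar_sub_left, h.ow, h.ow]
  simp

theorem Fr.rfw_b (h : Fr Q b w) (i : Fin 5) : rf Q w (b i) = b i := by
  rw [rf_apply h.nw0, polar_comm, h.ow]
  simp

theorem Fr.rfw_w (h : Fr Q b w) : rf Q w w = -w := by
  rw [rf_apply h.nw0, polar_self', h.nw, ← mul_assoc, inv_mul_cancel₀ h.two, one_mul, two_smul]
  abel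

/-- `r(b i) r(b 4)` -/
noncomputable def xx (Q : QuadraticForm F V) (b : Fin 5 → V) (i : Fin 5) : V ≃ₗ[F] V := rf Q (b i) * rf Q (b 4)

/-- `r(b 0 - b 1) r(w)` -/
noncomputable def uu (Q : QuadraticForm F V) (b : Fin 5 → V) (w : V) : V ≃ₗ[F] V := rf Q (b 0 - b 1) * rf Q w

/-- `r(b 2 - b 3) r(w)` -/
noncomputable def uv (Q : QuadraticForm F V) (b : Fin 5 → V) (w : V) : V ≃ₗ[F] V := rf Q (b 2 - b 3) * rf Q w

/-- `r(b 0 - b 2) r(b 1 - b 3)` -/
noncomputable def ss (Q : QuadraticForm F V) (b : Fin 5 → V) : V ≃ₗ[F] V := rf Q (b 0 - b 2) * rf Q (b 1 - b 3)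

theorem ss_O : ss Q b ∈ O Q := mul_mem (rf_mem_O _) (rf_mem_O _)
theorem uu_O : uu Q b w ∈ O Q := mul_mem (rf_mem_O _) (rf_mem_O _)
theorem uv_O : uv Q b w ∈ O Q := mul_mem (rf_mem_O _) (rf_mem_O _)

theorem conj_mul_rf {g : V ≃ₗ[F] V} (hg : g ∈ O Q) (x y : V) :
    g * (rf Q x * rf Q y) * g⁻¹ = rf Q (g x) * rf Q (g y) := by
  rw [← rf_conj hg, ← rf_conj hg]
  group

variable (h : Fr Q b w)
include h

theorem ss_b : ss Q b (b 0) = b 2 ∧ ss Q b (b 1) = b 3 ∧ ss Q b (b 2) = b 0 ∧ ss Q b (b 3) = b 1 ∧ ss Q b (b 4) = b 4 ∧ ss Q b w = w := by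
  have e : ∀ x, ss Q b x = rf Q (b 0 - b 2) (rf Q (b 1 - b 3) x) := fun _ => rfl
  refine ⟨?_, ?_, ?_, ?_, ?_, ?_⟩
  · rw [e, h.rf_fix (by decide) (by decide) (by decide), h.rf_left (by decide)]
  · rw [e, h.rf_left (by decide), h.rf_fix (by decide) (by decide) (by decide)]
  · rw [e, h.rf_fix (by decide) (by decide) (by decide), h.rf_right (by decide)]
  · rw [e, h.rf_right (by decide), h.rf_fix (by decide) (by decide) (by decide)]
  · rw [e, h.rf_fix (by decide) (by decide) (by decide), h.rf_fix (by decide) (by decide) (by decide)]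
  · rw [e, h.rf_w (by decide), h.rf_w (by decide)]

theorem uu_b : uu Q b w (b 0) = b 1 ∧ uu Q b w (b 1) = b 0 ∧ uu Q b w (b 2) = b 2 ∧ uu Q b w (b 3) = b 3 ∧ uu Q b w (b 4) = b 4 := by
  have e : ∀ x, uu Q b w x = rf Q (b 0 - b 1) (rf Q w x) := fun _ => rfl
  refine ⟨?_, ?_, ?_, ?_, ?_⟩
  · rw [e, h.rfw_b, h.rf_left (by decide)]
  · rw [e, h.rfw_b, h.rf_right (by decide)]
  · rw [e, h.rfw_b, h.rf_fix (by decide) (by decide) (by decide)]
  · rw [e, h.rfw_b, h.rf_fix (by decide) (by decide) (by decide)]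
  · rw [e, h.rfw_b, h.rf_fix (by decide) (by decide) (by decide)]

theorem uv_b : uv Q b w (b 0) = b 0 ∧ uv Q b w (b 1) = b 1 ∧ uv Q b w (b 2) = b 3 ∧ uv Q b w (b 3) = b 2 ∧ uv Q b w (b 4) = b 4 := by
  have e : ∀ x, uv Q b w x = rf Q (b 2 - b 3) (rf Q w x) := fun _ => rfl
  refine ⟨?_, ?_, ?_, ?_, ?_⟩
  · rw [e, h.rfw_b, h.rf_fix (by decide) (by decide) (by decide)]
  · rw [e, h.rfw_b, h.rf_fix (by decide) (by decide) (by decide)]
  · rw [e, h.rfw_b, h.rf_left (by decide)]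
  · rw [e, h.rfw_b, h.rf_right (by decide)]
  · rw [e, h.rfw_b, h.rf_fix (by decide) (by decide) (by decide)]

theorem xx_comm (i j : Fin 5) : xx Q b i * xx Q b j = xx Q b j * xx Q b i := by
  have h1 : ∀ k l : Fin 5, rf Q (b k) * rf Q (b l) = rf Q (b l) * rf Q (b k) := by
    intro k l
    by_cases hkl : k = l
    · rw [hkl]
    · exact rf_comm (h.ob k l hkl)
  have h2 : ∀ k l : Fin 5, Commute (rf Q (b k)) (rf Q (b l)) := h1
  exact ((h2 i j).mul_right (h2 i 4)).mul_left ((h2 4 j).mul_right (h2 4 4))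

theorem xx_sq (i : Fin 5) : xx Q b i * xx Q b i = 1 := by
  by_cases hi : i = 4
  · rw [xx, hi, rf_sq, one_mul]
  · have h1 := rf_comm (h.ob i 4 hi)
    calc xx Q b i * xx Q b i = rf Q (b i) * (rf Q (b 4) * rf Q (b i)) * rf Q (b 4) := by rw [xx]; group
      _ = rf Q (b i) * (rf Q (b i) * rf Q (b 4)) * rf Q (b 4) := by rw [h1]
      _ = (rf Q (b i) * rf Q (b i)) * (rf Q (b 4) * rf Q (b 4)) := by group
      _ = 1 := by rw [rf_sq, rf_sq, one_mul]

theorem pdw {i j : Fin 5} : polar Q (b i - b j) w = 0 := by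
  rw [polar_sub_left, h.ow, h.ow, sub_zero]

theorem pdd : polar Q (b 0 - b 1) (b 2 - b 3) = 0 := by
  rw [polar_sub_left, polar_sub_right, polar_sub_right, h.ob _ _ (by decide), h.ob _ _ (by decide), h.ob _ _ (by decide),
    h.ob _ _ (by decide)]
  simp

theorem pde : polar Q (b 0 - b 2) (b 1 - b 3) = 0 := by
  rw [polar_sub_left, polar_sub_right, polar_sub_right, h.ob _ _ (by decide), h.ob _ _ (by decide), h.ob _ _ (by decide),
    h.ob _ _ (by decide)]
  simp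

theorem mul_sq_of {x y : V} (hxy : polar Q x y = 0) : (rf Q x * rf Q y) * (rf Q x * rf Q y) = 1 := by
  have h1 := rf_comm hxy
  calc (rf Q x * rf Q y) * (rf Q x * rf Q y) = rf Q x * (rf Q y * rf Q x) * rf Q y := by group
    _ = rf Q x * (rf Q x * rf Q y) * rf Q y := by rw [h1]
    _ = (rf Q x * rf Q x) * (rf Q y * rf Q y) := by group
    _ = 1 := by rw [rf_sq, rf_sq, one_mul]

theorem uu_sq : uu Q b w * uu Q b w = 1 := mul_sq_of h (pdw h)
theorem uv_sq : uv Q b w * uv Q b w = 1 := mul_sq_of h (pdw h)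
theorem ss_sq : ss Q b * ss Q b = 1 := mul_sq_of h (pde h)

theorem uu_uv : uu Q b w * uv Q b w = uv Q b w * uu Q b w := by
  have h1 : Commute (rf Q (b 0 - b 1)) (rf Q (b 2 - b 3)) := rf_comm (pdd h)
  have h2 : Commute (rf Q (b 0 - b 1)) (rf Q w) := rf_comm (pdw h)
  have h3 : Commute (rf Q (b 2 - b 3)) (rf Q w) := rf_comm (pdw h)
  exact (h1.mul_right h2).mul_left (h3.symm.mul_right (Commute.refl _))

omit h in
/-- the sign changes -/
def SD (Q : QuadraticForm F V) (b : Fin 5 → V) : Set (V ≃ₗ[F] V) := Set.range (xx Q b)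

omit h in
/-- the two swaps -/
def SU (Q : QuadraticForm F V) (b : Fin 5 → V) (w : V) : Set (V ≃ₗ[F] V) := {uu Q b w, uv Q b w}

theorem pg_D : IsPGroup 2 (closure (SD Q b)) := by
  refine closure_inv_two ?_ ?_
  · rintro _ ⟨i, rfl⟩ _ ⟨j, rfl⟩
    exact xx_comm h i j
  · rintro _ ⟨i, rfl⟩
    exact xx_sq h i

theorem pg_U : IsPGroup 2 (closure (SU Q b w)) := by
  refine closure_inv_two ?_ ?_
  · rintro _ (rfl | rfl) _ (rfl | rfl)
    · rfl
    · exact uu_uv h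
    · exact (uu_uv h).symm
    · rfl
  · rintro _ (rfl | rfl)
    · exact uu_sq h
    · exact uv_sq h

theorem uu_norm : zpowers (uu Q b w) ≤ normalizer (closure (SD Q b) : Set (V ≃ₗ[F] V)) := by
  refine norm_of_inv (uu_sq h) ?_
  obtain ⟨h0, h1, h2, h3, h4⟩ := uu_b h
  rintro _ ⟨i, rfl⟩
  rw [xx, conj_mul_rf uu_O, h4]
  apply Subgroup.subset_closure
  fin_cases i
  · exact ⟨1, by rw [xx]; erw [h0]⟩
  · exact ⟨0, by rw [xx]; erw [h1]⟩
  · exact ⟨2, by rw [xx]; erw [h2]⟩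
  · exact ⟨3, by rw [xx]; erw [h3]⟩
  · exact ⟨4, by rw [xx]; erw [h4]⟩

theorem uv_norm : zpowers (uv Q b w) ≤ normalizer (closure (SD Q b) : Set (V ≃ₗ[F] V)) := by
  refine norm_of_inv (uv_sq h) ?_
  obtain ⟨h0, h1, h2, h3, h4⟩ := uv_b h
  rintro _ ⟨i, rfl⟩
  rw [xx, conj_mul_rf uv_O, h4]
  apply Subgroup.subset_closure
  fin_cases i
  · exact ⟨0, by rw [xx]; erw [h0]⟩
  · exact ⟨1, by rw [xx]; erw [h1]⟩
  · exact ⟨3, by rw [xx]; erw [h2]⟩
  · exact ⟨2, by rw [xx]; erw [h3]⟩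
  · exact ⟨4, by rw [xx]; erw [h4]⟩

theorem U_norm : closure (SU Q b w) ≤ normalizer (closure (SD Q b) : Set (V ≃ₗ[F] V)) := by
  rw [closure_le]
  rintro _ (rfl | rfl)
  · exact uu_norm h (mem_zpowers _)
  · exact uv_norm h (mem_zpowers _)

theorem s_xx (i : Fin 5) : ∃ j, ss Q b * xx Q b i * (ss Q b)⁻¹ = xx Q b j := by
  obtain ⟨h0, h1, h2, h3, h4, h5⟩ := ss_b h
  rw [xx, conj_mul_rf ss_O, h4]
  fin_cases i
  · exact ⟨2, by rw [xx]; erw [h0]⟩
  · exact ⟨3, by rw [xx]; erw [h1]⟩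
  · exact ⟨0, by rw [xx]; erw [h2]⟩
  · exact ⟨1, by rw [xx]; erw [h3]⟩
  · exact ⟨4, by rw [xx]; erw [h4]⟩

theorem s_uu : ss Q b * uu Q b w * (ss Q b)⁻¹ = uv Q b w := by
  obtain ⟨h0, h1, h2, h3, h4, h5⟩ := ss_b h
  rw [uu, conj_mul_rf ss_O, map_sub, h0, h1, h5, uv]

theorem s_uv : ss Q b * uv Q b w * (ss Q b)⁻¹ = uu Q b w := by
  obtain ⟨h0, h1, h2, h3, h4, h5⟩ := ss_b h
  rw [uv, conj_mul_rf ss_O, map_sub, h2, h3, h5, uu]

theorem s_norm : zpowers (ss Q b) ≤ normalizer (closure (SU Q b w ∪ SD Q b) : Set (V ≃ₗ[F] V)) := by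
  refine norm_of_inv (ss_sq h) ?_
  rintro _ ((rfl | rfl) | ⟨i, rfl⟩)
  · rw [s_uu h]
    exact Subgroup.subset_closure (Or.inl (Or.inr rfl))
  · rw [s_uv h]
    exact Subgroup.subset_closure (Or.inl (Or.inl rfl))
  · obtain ⟨j, hj⟩ := s_xx h i
    rw [hj]
    exact Subgroup.subset_closure (Or.inr ⟨j, rfl⟩)

omit h in
/-- the `2`-group -/
noncomputable def RR (Q : QuadraticForm F V) (b : Fin 5 → V) (w : V) : Subgroup (V ≃ₗ[F] V) :=
  zpowers (ss Q b) ⊔ closure (SU Q b w ∪ SD Q b)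

theorem pg_RR : IsPGroup 2 (RR Q b w) := by
  have h1 : IsPGroup 2 (closure (SU Q b w ∪ SD Q b)) := by
    rw [Subgroup.closure_union]
    exact (pg_U h).to_sup_of_normal_right' (pg_D h) (U_norm h)
  exact (zpowers_two (ss_sq h)).to_sup_of_normal_right' h1 (s_norm h)

theorem RR_le : RR Q b w ≤ ⁅O Q, O Q⁆ := by
  rw [RR, sup_le_iff, zpowers_le, closure_le]
  refine ⟨?_, ?_⟩
  · exact rf_two_mem h.two (h.nd0 (by decide)) (by rw [h.nd (by decide), h.nd (by decide)]) (pde h)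
  · rintro _ ((rfl | rfl) | ⟨i, rfl⟩)
    · exact rf_two_mem h.two (h.nd0 (by decide)) (by rw [h.nd (by decide), h.nw]) (pdw h)
    · exact rf_two_mem h.two (h.nd0 (by decide)) (by rw [h.nd (by decide), h.nw]) (pdw h)
    · by_cases hi : i = 4
      · rw [xx, hi, rf_sq]
        exact one_mem _
      · exact rf_two_mem h.two (h.nb0 i) (by rw [h.nb, h.nb]) (h.ob i 4 hi)

omit h in
theorem xx_mem (i : Fin 5) : xx Q b i ∈ RR Q b w := mem_sup_right (Subgroup.subset_closure (Or.inr ⟨i, rfl⟩))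
omit h in
theorem uu_mem : uu Q b w ∈ RR Q b w := mem_sup_right (Subgroup.subset_closure (Or.inl (Or.inl rfl)))
omit h in
theorem ss_mem : ss Q b ∈ RR Q b w := mem_sup_left (mem_zpowers _)

/-- the commutator of commutators maps `b 0` to `-b 0` and fixes `b 4` -/
theorem comm_val : ⁅⁅xx Q b 0, ss Q b⁆, ⁅uu Q b w, ss Q b⁆⁆ (b 0) = - b 0 ∧
    ⁅⁅xx Q b 0, ss Q b⁆, ⁅uu Q b w, ss Q b⁆⁆ (b 4) = b 4 := by
  obtain ⟨h0, h1, h2, h3, h4, h5⟩ := ss_b h
  -- first commutator: `r(b 0) r(b 2)`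
  have e1 : ⁅xx Q b 0, ss Q b⁆ = rf Q (b 0) * rf Q (b 2) := by
    have e : ⁅xx Q b 0, ss Q b⁆ = xx Q b 0 * (ss Q b * xx Q b 0 * (ss Q b)⁻¹)⁻¹ := by
      rw [commutatorElement_def]
      have hx : (xx Q b 0)⁻¹ = xx Q b 0 := inv_eq_of_mul_eq_one_left (xx_sq h 0)
      group
    have e' : ss Q b * xx Q b 0 * (ss Q b)⁻¹ = xx Q b 2 := by
      rw [xx, conj_mul_rf ss_O, h4, h0, xx]
    rw [e, e', inv_eq_of_mul_eq_one_left (xx_sq h 2)]
    have h6 : rf Q (b 2) * rf Q (b 4) = rf Q (b 4) * rf Q (b 2) := rf_comm (h.ob 2 4 (by decide))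
    rw [xx, xx, h6]
    calc rf Q (b 0) * rf Q (b 4) * (rf Q (b 4) * rf Q (b 2)) = rf Q (b 0) * (rf Q (b 4) * rf Q (b 4)) * rf Q (b 2) := by group
      _ = rf Q (b 0) * rf Q (b 2) := by rw [rf_sq, mul_one]
  -- second commutator: `r(b 0 - b 1) r(b 2 - b 3)`
  have e2 : ⁅uu Q b w, ss Q b⁆ = rf Q (b 0 - b 1) * rf Q (b 2 - b 3) := by
    have e : ⁅uu Q b w, ss Q b⁆ = uu Q b w * (ss Q b * uu Q b w * (ss Q b)⁻¹)⁻¹ := by
      rw [commutatorElement_def]
      group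
    rw [e, s_uu h, inv_eq_of_mul_eq_one_left (uv_sq h)]
    have h6 : rf Q (b 2 - b 3) * rf Q w = rf Q w * rf Q (b 2 - b 3) := rf_comm (pdw h)
    rw [uu, uv, h6]
    calc rf Q (b 0 - b 1) * rf Q w * (rf Q w * rf Q (b 2 - b 3)) =
        rf Q (b 0 - b 1) * (rf Q w * rf Q w) * rf Q (b 2 - b 3) := by group
      _ = rf Q (b 0 - b 1) * rf Q (b 2 - b 3) := by rw [rf_sq, mul_one]
  -- the conjugate of the first by the second: `r(b 1) r(b 3)`
  have ht : rf Q (b 0 - b 1) * rf Q (b 2 - b 3) ∈ O Q := mul_mem (rf_mem_O _) (rf_mem_O _)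
  have t0 : (rf Q (b 0 - b 1) * rf Q (b 2 - b 3)) (b 0) = b 1 := by
    show rf Q (b 0 - b 1) (rf Q (b 2 - b 3) (b 0)) = b 1
    rw [h.rf_fix (by decide) (by decide) (by decide), h.rf_left (by decide)]
  have t2 : (rf Q (b 0 - b 1) * rf Q (b 2 - b 3)) (b 2) = b 3 := by
    show rf Q (b 0 - b 1) (rf Q (b 2 - b 3) (b 2)) = b 3
    rw [h.rf_left (by decide), h.rf_fix (by decide) (by decide) (by decide)]
  have e3 : ⁅⁅xx Q b 0, ss Q b⁆, ⁅uu Q b w, ss Q b⁆⁆ = rf Q (b 0) * rf Q (b 2) * (rf Q (b 1) * rf Q (b 3))⁻¹ := by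
    rw [e1, e2]
    have e4 := conj_mul_rf ht (b 0) (b 2)
    rw [t0, t2] at e4
    rw [← e4, commutatorElement_def]
    group
  have e5 : (rf Q (b 1) * rf Q (b 3))⁻¹ = rf Q (b 3) * rf Q (b 1) := by
    rw [mul_inv_rev, rf_inv, rf_inv]
  have rfb : ∀ i j : Fin 5, i ≠ j → rf Q (b i) (b j) = b j := by
    intro i j hij
    rw [rf_apply (h.nb0 i), h.ob i j hij]
    simp
  have rfs : ∀ i : Fin 5, rf Q (b i) (b i) = - b i := by
    intro i
    rw [rf_apply (h.nb0 i), polar_self', h.nb, inv_one, one_mul, mul_one, two_smul]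
    abel
  have e6 : ∀ x, ⁅⁅xx Q b 0, ss Q b⁆, ⁅uu Q b w, ss Q b⁆⁆ x = rf Q (b 0) (rf Q (b 2) (rf Q (b 3) (rf Q (b 1) x))) := by
    intro x
    rw [e3, e5]
    rfl
  constructor
  · rw [e6, rfb 1 0 (by decide), rfb 3 0 (by decide), rfb 2 0 (by decide), rfs]
  · rw [e6, rfb 1 4 (by decide), rfb 3 4 (by decide), rfb 2 4 (by decide), rfb 0 4 (by decide)]

end Frame

end Cfsg.Agent.H36.HT
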