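import Cfsg.Agent.H36.HT.VacOm
import Cfsg.Agent.LieClassical.OrthForms
import Mathlib.FieldTheory.Finite.Basic

/-!
# S4933, `p = 2`, orthogonal groups, odd characteristic: the three families are `Vac 2` (helper36)
-/

set_option autoImplicit false

open Subgroup
open scoped commutatorElement

namespace Cfsg.Agent.H36.HT

open Cfsg QuadraticMap Cfsg.Agent.LieClassical.OrthCore Cfsg.Agent.LieClassical.OrthFinite

/-! ### From the frame to `PΩ` -/

section Main

variable {F : Type} [Field F] {ι : Type} [Fintype ι] [DecidableEq ι]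

theorem vac_of_fr (Q : QuadraticForm F (ι → F)) (hQ : Nondeg Q) (hn : 3 ≤ Fintype.card ι)
    (hs : ∃ u : ι → F, u ≠ 0 ∧ Q u = 0) {b : Fin 5 → (ι → F)} {w : ι → F} (h : Fr Q b w) : Vac 2 (POmega F ⇑Q) := by
  have hne : ∀ i, b i ≠ -b i := by
    intro i hi
    have h1 : (2 : F) • b i = 0 := by
      rw [two_smul]
      nth_rewrite 2 [hi]
      exact add_neg_cancel _
    have h2 : b i = 0 := (smul_eq_zero.1 h1).resolve_left h.two
    have h3 := h.nb i
    rw [h2, QuadraticMap.map_zero] at h3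
    exact zero_ne_one h3
  have hQ' : (polarBilin Q).Nondegenerate := by
    refine ⟨fun x hx => hQ x hx, fun x hx => hQ x fun y => ?_⟩
    rw [polar_comm]
    exact hx y
  let e := omegaEquiv Q
  have hR : IsPGroup 2 (((RR Q b w).subgroupOf ⁅O Q, O Q⁆).comap e.toMonoidHom) :=
    ((pg_RR h).comap_subtype).comap_of_injective e.toMonoidHom e.injective
  have mem : ∀ (g : (ι → F) ≃ₗ[F] (ι → F)) (hg : g ∈ RR Q b w),
      e.symm ⟨g, RR_le h hg⟩ ∈ ((RR Q b w).subgroupOf ⁅O Q, O Q⁆).comap e.toMonoidHom := by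
    intro g hg
    rw [mem_comap]
    show e (e.symm _) ∈ _
    rw [MulEquiv.apply_symm_apply, mem_subgroupOf]
    exact hg
  refine Vac.of_comm_hom (QuotientGroup.mk' (center (Omega F ⇑Q))) hR (mem _ (xx_mem 0)) (mem _ ss_mem) (mem _ uu_mem)
    (mem _ ss_mem) ?_
  intro hc
  rw [QuotientGroup.mk'_apply, QuotientGroup.eq_one_iff] at hc
  set c := ⁅⁅e.symm ⟨xx Q b 0, RR_le h (xx_mem 0)⟩, e.symm ⟨ss Q b, RR_le h ss_mem⟩⁆,
    ⁅e.symm ⟨uu Q b w, RR_le h uu_mem⟩, e.symm ⟨ss Q b, RR_le h ss_mem⟩⁆⁆ with hcd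
  have hval : ((e c : (⁅O Q, O Q⁆ : Subgroup ((ι → F) ≃ₗ[F] (ι → F)))) : (ι → F) ≃ₗ[F] (ι → F)) =
      ⁅⁅xx Q b 0, ss Q b⁆, ⁅uu Q b w, ss Q b⁆⁆ := by
    rw [hcd, map_commutatorElement, map_commutatorElement, map_commutatorElement, MulEquiv.apply_symm_apply,
      MulEquiv.apply_symm_apply, MulEquiv.apply_symm_apply]
    rfl
  obtain ⟨v0, v4⟩ := comm_val h
  have hap : ∀ v, (LieClassical.OmegaCenter.omegaMat c).mulVec v = ⁅⁅xx Q b 0, ss Q b⁆, ⁅uu Q b w, ss Q b⁆⁆ v := by
    intro v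
    rw [← hval]
    exact (omegaEquiv_apply Q c v).symm
  rcases (LieClassical.OmegaCenter.mem_center_omega_iff Q hQ' hn hs c).1 hc with h1 | h1
  · have h2 := hap (b 0)
    rw [h1, Matrix.one_mulVec, v0] at h2
    exact hne 0 h2
  · have h2 := hap (b 4)
    rw [h1, Matrix.neg_mulVec, Matrix.one_mulVec, v4] at h2
    exact hne 4 h2.symm

end Main

/-! ### The frame from three hyperbolic planes and a vector of norm `1` -/

section Hyp

variable {F V : Type*} [Field F] [AddCommGroup V] [Module F V]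

/-- three hyperbolic planes and an orthogonal vector of norm `1` -/
structure Hy (Q : QuadraticForm F V) (e f : Fin 3 → V) (z : V) : Prop where
  e0 : ∀ i, Q (e i) = 0
  f0 : ∀ i, Q (f i) = 0
  ee : ∀ i j, polar Q (e i) (e j) = 0
  ff : ∀ i j, polar Q (f i) (f j) = 0
  ef : ∀ i j, polar Q (e i) (f j) = if i = j then 1 else 0
  z1 : Q z = 1
  ez : ∀ i, polar Q (e i) z = 0
  fz : ∀ i, polar Q (f i) z = 0

theorem Hy.fr {Q : QuadraticForm F V} {e f : Fin 3 → V} {z : V} (h : Hy Q e f z) (h2 : (2 : F) ≠ 0) {α β : F}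
    (hab : α ^ 2 + β ^ 2 = -1) :
    Fr Q ![e 0 + f 0, e 1 + f 1, α • e 0 + (-α) • f 0 + β • e 1 + (-β) • f 1, β • e 0 + (-β) • f 0 + (-α) • e 1 + α • f 1, z]
      (e 2 + (2 : F) • f 2) := by
  have fe : ∀ i j, polar Q (f i) (e j) = if j = i then 1 else 0 := fun i j => by rw [polar_comm, h.ef]
  have ze : ∀ i, polar Q z (e i) = 0 := fun i => by rw [polar_comm, h.ez]
  have zf : ∀ i, polar Q z (f i) = 0 := fun i => by rw [polar_comm, h.fz]
  refine ⟨h2, ?_, ?_, ?_, ?_⟩
  · intro i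
    fin_cases i
    · simp [Q_add, h.e0, h.f0, h.ef]
    · simp [Q_add, h.e0, h.f0, h.ef]
    · simp [Q_add, h.e0, h.f0, h.ef, h.ee, h.ff, fe, polar_add_left, polar_smul_left, polar_smul_right, QuadraticMap.map_smul]
      linear_combination -hab
    · simp [Q_add, h.e0, h.f0, h.ef, h.ee, h.ff, fe, polar_add_left, polar_smul_left, polar_smul_right, QuadraticMap.map_smul]
      linear_combination -hab
    · simp [h.z1]
  · simp [Q_add, h.e0, h.f0, h.ef, polar_smul_right, QuadraticMap.map_smul]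
  · intro i j hij
    fin_cases i <;> fin_cases j <;> first | exact absurd rfl hij | skip
    all_goals
      simp [h.ef, h.ee, h.ff, fe, ze, zf, h.ez, h.fz, polar_add_left, polar_add_right, polar_smul_left, polar_smul_right]
    all_goals ring
  · intro i
    fin_cases i <;>
      simp [h.ef, h.ee, h.ff, fe, ze, zf, h.ez, h.fz, polar_add_left, polar_add_right, polar_smul_left, polar_smul_right]

end Hyp

/-! ### The three families -/

section Fam

variable {F : Type} [Field F] [Fintype F]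

omit [Fintype F] in
theorem two_ne_of_odd [Fintype F] (hodd : Odd (Fintype.card F)) : (2 : F) ≠ 0 := by
  intro h2
  have hchar : CharP F 2 := CharTwo.of_one_ne_zero_of_two_eq_zero one_ne_zero h2
  have h1 := FiniteField.even_card_of_char_two (F := F) (ringChar.eq F 2)
  rcases hodd with ⟨m, hm⟩
  omega

theorem exists_ab (hodd : Odd (Fintype.card F)) : ∃ a b : F, a ^ 2 + b ^ 2 = -1 := by
  obtain ⟨a, b, h⟩ := FiniteField.exists_root_sum_quadratic (R := F) (f := Polynomial.X ^ 2)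
    (g := Polynomial.X ^ 2 - Polynomial.C (-1)) (by simp) (by rw [Polynomial.degree_X_pow_sub_C (by norm_num)]; rfl)
    (Nat.odd_iff.1 hodd)
  refine ⟨a, b, ?_⟩
  simp at h
  linear_combination h

open Cfsg.Agent.LieClassical.OrthForms in
theorem hy_odd {m : ℕ} (hm : 3 ≤ m) : Hy (oddForm m F) (fun i => Pi.single (Sum.inr (Sum.inl (Fin.castLE hm i))) 1)
    (fun i => Pi.single (Sum.inr (Sum.inr (Fin.castLE hm i))) 1) (Pi.single (Sum.inl ()) 1) := by
  refine ⟨?_, ?_, ?_, ?_, ?_, ?_, ?_, ?_⟩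
  · intro i
    rw [coe_oddForm, quadFormOdd]
    simp
  · intro i
    rw [coe_oddForm, quadFormOdd]
    simp
  · intro i j
    rw [polar_oddForm]
    simp
  · intro i j
    rw [polar_oddForm]
    simp
  · intro i j
    rw [polar_oddForm]
    simp [Pi.single_apply, (Fin.castLE_injective hm).eq_iff, eq_comm]
  · rw [coe_oddForm, quadFormOdd]
    simp
  · intro i
    rw [polar_oddForm]
    simp
  · intro i
    rw [polar_oddForm]
    simp

open Cfsg.Agent.LieClassical.OrthForms in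
theorem hy_plus {m : ℕ} (hm : 4 ≤ m) : Hy (plusForm m F)
    (fun i => Pi.single (Sum.inl (Fin.castLE hm (Fin.castSucc i))) 1)
    (fun i => Pi.single (Sum.inr (Fin.castLE hm (Fin.castSucc i))) 1)
    (Pi.single (Sum.inl (Fin.castLE hm 3)) 1 + Pi.single (Sum.inr (Fin.castLE hm 3)) 1) := by
  have h3 : ∀ (i : Fin 3) (h : 3 ≤ m), Fin.castLE h i ≠ Fin.castLE hm 3 := by
    intro i h hi
    have h1 := congrArg Fin.val hi
    simp at h1
    omega
  refine ⟨?_, ?_, ?_, ?_, ?_, ?_, ?_, ?_⟩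
  · intro i
    rw [coe_plusForm, quadFormPlus]
    simp
  · intro i
    rw [coe_plusForm, quadFormPlus]
    simp
  · intro i j
    rw [polar_plusForm]
    simp
  · intro i j
    rw [polar_plusForm]
    simp
  · intro i j
    rw [polar_plusForm]
    simp [Pi.single_apply, (Fin.castLE_injective hm).eq_iff, eq_comm]
  · rw [coe_plusForm, quadFormPlus]
    simp [Pi.single_apply]
  · intro i
    rw [polar_plusForm]
    simp [Pi.single_apply]
    exact fun hh => h3 i _ hh.symm
  · intro i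
    rw [polar_plusForm]
    simp [Pi.single_apply]
    exact h3 i _

open Cfsg.Agent.LieClassical.OrthForms in
theorem hy_minus {m : ℕ} (hm : 3 ≤ m) (a b : F) : Hy (minusForm m F a b)
    (fun i => Pi.single (Sum.inl (Sum.inl (Fin.castLE hm i))) 1)
    (fun i => Pi.single (Sum.inl (Sum.inr (Fin.castLE hm i))) 1) (Pi.single (Sum.inr 0) 1) := by
  refine ⟨?_, ?_, ?_, ?_, ?_, ?_, ?_, ?_⟩
  · intro i
    rw [coe_minusForm, quadFormMinus]
    simp
  · intro i
    rw [coe_minusForm, quadFormMinus]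
    simp
  · intro i j
    rw [polar_minusForm]
    simp
  · intro i j
    rw [polar_minusForm]
    simp
  · intro i j
    rw [polar_minusForm]
    simp [Pi.single_apply, (Fin.castLE_injective hm).eq_iff, eq_comm]
  · rw [coe_minusForm, quadFormMinus]
    simp
  · intro i
    rw [polar_minusForm]
    simp
  · intro i
    rw [polar_minusForm]
    simp

theorem vac_odd (m : ℕ) (hm : 3 ≤ m) (hF : Odd (Fintype.card F)) : Vac 2 (POmega F (quadFormOdd m F)) := by
  obtain ⟨α, β, hab⟩ := exists_ab hF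
  have hy := hy_odd (F := F) hm
  rw [← LieClassical.OrthForms.coe_oddForm]
  refine vac_of_fr _ (LieClassical.OrthForms.nondeg_oddForm _ _ (two_ne_of_odd hF)) ?_ ⟨_, ?_, hy.e0 0⟩ (hy.fr (two_ne_of_odd hF) hab)
  · simp
    omega
  · intro h
    have := congrFun h (Sum.inr (Sum.inl (Fin.castLE hm 0)))
    simp at this

theorem vac_plus (m : ℕ) (hm : 4 ≤ m) (hF : Odd (Fintype.card F)) : Vac 2 (POmega F (quadFormPlus m F)) := by
  obtain ⟨α, β, hab⟩ := exists_ab hF
  have hy := hy_plus (F := F) hm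
  rw [← LieClassical.OrthForms.coe_plusForm]
  refine vac_of_fr _ (LieClassical.OrthForms.nondeg_plusForm _ _) ?_ ⟨_, ?_, hy.e0 0⟩ (hy.fr (two_ne_of_odd hF) hab)
  · simp
    omega
  · intro h
    have := congrFun h (Sum.inl (Fin.castLE hm (Fin.castSucc 0)))
    simp at this

theorem vac_minus (m : ℕ) (a b : F) (hm : 4 ≤ m)
    (hab : ∀ z₁ z₂ : F, z₁ ^ 2 + a * z₁ * z₂ + b * z₂ ^ 2 = 0 → z₁ = 0 ∧ z₂ = 0) (hF : Odd (Fintype.card F)) :
    Vac 2 (POmega F (quadFormMinus (m - 1) F a b)) := by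
  obtain ⟨α, β, hab'⟩ := exists_ab hF
  have hm' : 3 ≤ m - 1 := by omega
  have hy := hy_minus (F := F) hm' a b
  rw [← LieClassical.OrthForms.coe_minusForm]
  refine vac_of_fr _ (LieClassical.OrthForms.nondeg_minusForm _ _ a b hab) ?_ ⟨_, ?_, hy.e0 0⟩ (hy.fr (two_ne_of_odd hF) hab')
  · simp
    omega
  · intro h
    have := congrFun h (Sum.inl (Sum.inl (Fin.castLE hm' 0)))
    simp at this

end Fam

end Cfsg.Agent.H36.HT
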